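import Cfsg.Agent.R2.Spec.X1.E6.ERBase
import Cfsg.Agent.S1067

/-!
# Identification of `E₆(q)`, `²E₆(q)`: the rows of `F₄(u)`, `³D₄(u)` (helper77, statements S3480, S3481)
-/

set_option autoImplicit false
set_option linter.unusedSectionVars false

namespace Cfsg.Agent.R2.Spec.X1.E6.ERF4

open Cfsg Cfsg.Lie
open Cfsg.Agent.R2.Spec.X1.E6 Cfsg.Agent.H129 Cfsg.Agent.H129.CycT Cfsg.Agent.R2.Spec.X1.E6.ERBase
open Cfsg.Agent.H134.TD (TorAt torAt_of_exact tor_F4_8)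
open Cfsg.Agent.H378.ExcAdj Cfsg.Agent.H378.CycTab Cfsg.Agent.H72.F4I

universe u

/-- bound -/
theorem bound {d x y c : ℤ} (hd : 1 ≤ d) (hd3 : d ≤ 3) (hx : 64 ≤ x) (hc : c ≤ x) (hy : 0 ≤ y)
    (h : y ^ 2 - d * y ≤ d * (x ^ 2 + c + 1)) : 4 * y ≤ 7 * x + 12 := by
  by_contra hcon
  push Not at hcon
  have h1 : d * (x ^ 2 + c + 1) ≤ 3 * (x ^ 2 + x + 1) := by
    calc d * (x ^ 2 + c + 1) ≤ d * (x ^ 2 + x + 1) := mul_le_mul_of_nonneg_left (by linarith) (by linarith)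
      _ ≤ 3 * (x ^ 2 + x + 1) := mul_le_mul_of_nonneg_right hd3 (by positivity)
  have h2 : d * y ≤ 3 * y := by nlinarith
  have h3 : (7 * x + 12) * (7 * x) < (4 * y) * (4 * y - 12) := by nlinarith
  nlinarith

/-- the bound for `v² ∣ …` -/
theorem klt {D : Dat} (hq : 4 ≤ D.q) {y : ℤ} (hb : 4 * (D.d * y) ≤ 7 * (D.q : ℤ) ^ 3 + 12) :
    (D.q : ℤ) ^ 3 + y * D.d < D.m := by
  have hq' : (4 : ℤ) ≤ D.q := by exact_mod_cast hq
  obtain ⟨x, hx⟩ : ∃ x : ℤ, x = (D.q : ℤ) ^ 3 := ⟨_, rfl⟩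
  have hx16 : 16 * (D.q : ℤ) ≤ x := by rw [hx]; nlinarith [mul_self_nonneg ((D.q : ℤ) - 4)]
  have hxx : (D.q : ℤ) * D.q * 4 ≤ x := by rw [hx]; nlinarith [mul_self_nonneg (D.q : ℤ)]
  have hmx : (D.m : ℤ) = D.q * x - D.q ^ 2 + 1 := by rw [D.hm, hx]; ring
  rw [hmx, ← hx]
  rw [← hx] at hb
  nlinarith

theorem q64 {D : Dat} (hq : 4 ≤ D.q) : (64 : ℤ) ≤ (D.q : ℤ) ^ 3 := by
  have h : 4 ^ 3 ≤ D.q ^ 3 := Nat.pow_le_pow_left hq 3
  exact_mod_cast h

theorem eps_le (D : Dat) {x : ℤ} (hx : 0 ≤ x) : D.ε * x ≤ x := by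
  rcases D.eps with h | h <;> rw [h] <;> linarith

theorem d_le (D : Dat) : (D.d : ℤ) ≤ 3 := by exact_mod_cast (show D.d ≤ 3 by rcases D.hd with h | h <;> omega)

theorem d_ge (D : Dat) : (1 : ℤ) ≤ D.d := by exact_mod_cast D.d_pos

/-- `n = v⁴ + 1` -/
theorem num8 {D : Dat} {v : ℕ} (hv : 2 ≤ v) (hn : D.n = v ^ 4 + 1)
    (hm : (D.m : ℤ) ∣ (v : ℤ) ^ 4 - (v : ℤ) ^ 2 + 1) : False := by
  have hv' : (2 : ℤ) ≤ v := by exact_mod_cast hv
  have hnz : (D.n : ℤ) = (v : ℤ) ^ 4 + 1 := by exact_mod_cast hn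
  by_cases hq : D.q < 4
  · have hlt : v < 6 := by
      have : D.n ≤ 757 := by rcases tab D (by omega) with h | h | h | h | h | h | h | h | h | h <;> omega
      by_contra hc
      have h2 : 6 ^ 4 ≤ v ^ 4 := Nat.pow_le_pow_left (not_lt.1 hc) 4
      omega
    rcases tab D (by omega) with h | h | h | h | h | h | h | h | h | h
    all_goals
      obtain ⟨h1, h2, h3, h4, h5, h6⟩ := h
      first
        | (exfalso; omega)
        | (rw [h4] at hn
           interval_cases v <;> omega)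
  · push Not at hq
    have hx := q64 hq
    have hdn := D.hn
    rw [hnz] at hdn
    have h1 : (D.m : ℤ) ∣ 1 * D.n + (-(v : ℤ) ^ 2) := by
      rw [hnz]
      have : 1 * ((v : ℤ) ^ 4 + 1) + -(v : ℤ) ^ 2 = (v : ℤ) ^ 4 - (v : ℤ) ^ 2 + 1 := by ring
      rw [this]
      exact hm
    have hb := bound (y := D.d * (v : ℤ) ^ 2) (c := D.ε * (D.q : ℤ) ^ 3) (d_ge D) (d_le D) hx
      (eps_le D (by linarith)) (by positivity) (by
        have e : (D.q : ℤ) ^ 6 = ((D.q : ℤ) ^ 3) ^ 2 := by ring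
        rw [e] at hdn
        rw [← hdn]
        have h3 : (0 : ℤ) ≤ D.d * (D.d * (v : ℤ) ^ 2) := by positivity
        nlinarith [sq_nonneg (D.d : ℤ)])
    have h2 := D.kill h1 (by
      rw [abs_neg, abs_one, one_mul, abs_of_nonneg (by positivity : (0 : ℤ) ≤ (v : ℤ) ^ 2)]
      exact klt hq hb)
    rw [one_mul] at h2
    have e : (D.q : ℤ) ^ 6 = (D.ε * (D.q : ℤ) ^ 3) ^ 2 := by
      have := D.eps_sq
      linear_combination (-(D.q : ℤ) ^ 6) * this
    have h3 : D.ε * (D.q : ℤ) ^ 3 = D.d * (v : ℤ) ^ 2 := by linear_combination h2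
    rw [e, h3] at hdn
    have hd := d_ge D
    rcases D.hd with h | h <;> rw [h] at hdn <;> push_cast at hdn <;> nlinarith [sq_nonneg ((v : ℤ) ^ 2)]

/-- `n = v⁴ - v² + 1` -/
theorem num12 {D : Dat} {v : ℕ} (hv : 2 ≤ v) (hn : D.n + v ^ 2 = v ^ 4 + 1)
    (hm : D.m ∣ v ^ 4 + 1) (he : v ^ 4 + 1 ∣ D.e) : False := by
  have hv' : (2 : ℤ) ≤ v := by exact_mod_cast hv
  have hnz : (D.n : ℤ) = (v : ℤ) ^ 4 - (v : ℤ) ^ 2 + 1 := by zify at hn; linear_combination hn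
  by_cases hq : D.q < 4
  · have hlt : v < 6 := by
      have : D.n ≤ 757 := by rcases tab D (by omega) with h | h | h | h | h | h | h | h | h | h <;> omega
      by_contra hc
      have h2 : 6 ≤ v := not_lt.1 hc
      have h3 : v ^ 4 = v ^ 2 * v ^ 2 := by ring
      have h4 : 6 ^ 2 ≤ v ^ 2 := Nat.pow_le_pow_left h2 2
      nlinarith
    rcases tab D (by omega) with h | h | h | h | h | h | h | h | h | h
    all_goals
      obtain ⟨h1, h2, h3, h4, h5, h6⟩ := h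
      first
        | (exfalso; omega)
        | (rw [h4] at hn
           rw [h5] at hm
           interval_cases v <;> omega)
  · push Not at hq
    have hx := q64 hq
    have hdn := D.hn
    rw [hnz] at hdn
    have h1 : (D.m : ℤ) ∣ 1 * D.n + (v : ℤ) ^ 2 := by
      rw [hnz]
      have : 1 * ((v : ℤ) ^ 4 - (v : ℤ) ^ 2 + 1) + (v : ℤ) ^ 2 = ((v ^ 4 + 1 : ℕ) : ℤ) := by push_cast; ring
      rw [this]
      exact Int.natCast_dvd_natCast.2 hm
    have hb := bound (y := D.d * (v : ℤ) ^ 2) (c := D.ε * (D.q : ℤ) ^ 3) (d_ge D) (d_le D) hx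
      (eps_le D (by linarith)) (by positivity) (by
        have e : (D.q : ℤ) ^ 6 = ((D.q : ℤ) ^ 3) ^ 2 := by ring
        rw [e] at hdn
        rw [← hdn]
        nlinarith [sq_nonneg (D.d : ℤ)])
    have h2 := D.kill h1 (by
      rw [abs_one, one_mul, abs_of_nonneg (by positivity : (0 : ℤ) ≤ (v : ℤ) ^ 2)]
      exact klt hq hb)
    rw [one_mul] at h2
    have e : (D.q : ℤ) ^ 6 = (D.ε * (D.q : ℤ) ^ 3) ^ 2 := by
      have := D.eps_sq
      linear_combination (-(D.q : ℤ) ^ 6) * this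
    have h3 : D.ε * (D.q : ℤ) ^ 3 = -(D.d * (v : ℤ) ^ 2) := by linear_combination h2
    rw [e, h3] at hdn
    have hd1 : D.d = 1 := by
      rcases D.hd with h | h
      · exact h
      · exfalso
        rw [h] at hdn
        push_cast at hdn
        nlinarith [sq_nonneg ((v : ℤ) ^ 2)]
    rw [hd1] at h3
    push_cast at h3
    have hε : D.ε = -1 := by
      rcases D.eps with h | h
      · exfalso
        rw [h] at h3
        nlinarith
      · exact h
    rw [hε] at h3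
    have h4 : (v : ℤ) ^ 4 + 1 = (D.q : ℤ) ^ 6 + 1 := by
      have h5 : (v : ℤ) ^ 2 = (D.q : ℤ) ^ 3 := by linarith
      have e1 : (v : ℤ) ^ 4 = ((v : ℤ) ^ 2) ^ 2 := by ring
      rw [e1, h5]
      ring
    have h5 : ((v ^ 4 + 1 : ℕ) : ℤ) ∣ D.e := Int.natCast_dvd_natCast.2 he
    push_cast at h5
    rw [h4, D.he, hε, D.hm] at h5
    have hq' : (4 : ℤ) ≤ D.q := by exact_mod_cast hq
    have h6 : (0 : ℤ) < (D.q : ℤ) ^ 4 - (D.q : ℤ) ^ 2 + 1 := by nlinarith [sq_nonneg ((D.q : ℤ) ^ 2)]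
    have h7 : (D.q : ℤ) ^ 6 + 1 = ((D.q : ℤ) ^ 2 + 1) * ((D.q : ℤ) ^ 4 - (D.q : ℤ) ^ 2 + 1) := by ring
    rw [h7] at h5
    have h8 := Int.dvd_of_mul_dvd_mul_right h6.ne' h5
    have h9 := Int.le_of_dvd (by nlinarith) h8
    linarith

section F4

variable {F : Type u} [Field F] [Fintype F]

/-- **`F₄(u)`** -/
theorem row_F4 {D : Dat} (h : Sit D ↥(chevF4.group F)) : False := by
  obtain ⟨v, hv⟩ : ∃ v, Fintype.card F = v := ⟨_, rfl⟩
  have hv' : Nat.card F = v := by rw [Nat.card_eq_fintype_card, hv]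
  have hv2 : 2 ≤ v := by rw [← hv]; exact Fintype.one_lt_card
  have hN8 : ((v ^ 4 + 1 : ℕ) : ℤ) = 1 + (v : ℤ) ^ 4 := by push_cast; ring
  have hle : v ^ 2 ≤ v ^ 4 := Nat.pow_le_pow_right (by omega) (by norm_num)
  obtain ⟨t, ht, htm, -, htc⟩ := h.exists_prime_m
  have hn := H72.F4I.f4_row hv (isoN h)
  rcases ((adj_F4 F ht htc).resolve_left (ne_two htm)).resolve_left (h.not_adj_two_m htm) with h1 | h1
  · rw [hv'] at h1
    have h2 := dvd8 ht h1
    rw [pv8] at h2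
    have h3 : t ∣ v ^ 4 + 1 := by exact_mod_cast h2
    obtain ⟨h4, h5⟩ := torAt h (tor_F4_8 hv hN8 ht h3 (ne_two htm)) ht h3 htm
    rcases hn with hn | hn
    · exact absurd (hn ▸ h3) (not_dvd_n ht htm)
    · exact num12 hv2 hn h4 h5
  · rw [hv'] at h1
    have h3 := dvd_n12 hv2 ht h1
    obtain ⟨h4, -⟩ := exact' h (exact_F4_12 hv (n12 hv2)) ht h3 htm
    have h5 : (D.m : ℤ) ∣ ((v ^ 4 - v ^ 2 + 1 : ℕ) : ℤ) := Int.natCast_dvd_natCast.2 h4
    rw [n12 hv2] at h5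
    rcases hn with hn | hn
    · refine num8 hv2 hn ?_
      convert h5 using 1
      ring
    · refine absurd ?_ (not_dvd_n ht htm)
      have : D.n = v ^ 4 - v ^ 2 + 1 := by omega
      rw [this]
      exact h3

end F4

section TD4

open Cfsg.Agent.H378 Cfsg.Agent.H378.TwRows Cfsg.Agent.H378.TwAdj Cfsg.Agent.H493.PGD4T Cfsg.Agent.H493.PGTwist
open Cfsg.Agent.H94.PG Cfsg.Agent.H493.PGTorus Cfsg.Agent.H493.PGCyc Cfsg.Agent.H129.WData

variable {K : Type u} [Field K] [Fintype K] {q : ℕ}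

/-- **`³D₄(q)`**: the primes not adjacent to `2`. -/
theorem adj_3D4 (hq : IsPrimePow q) (hK : Fintype.card K = q ^ 3) {r : ℕ} (hr : r.Prime)
    (hd : r ∣ Nat.card ↥(twistedD4 K q)) : r = 2 ∨ Adj ↥(twistedD4 K q) r 2 ∨ od q r = 12 := by
  by_cases h2 : r = 2
  · exact Or.inl h2
  right
  obtain ⟨p, n, hp, hn, hpn⟩ := id hq
  have hp := hp.nat_prime
  have hpq : p ∣ q := hpn ▸ dvd_pow_self p hn.ne'
  have hne : ∀ {f : ℕ} {c : Fin (f + 1) → ℤ}, (c 0 = 1 ∨ c 0 = -1) → (r : ℤ) ∣ pv c (q : ℤ) → r ≠ p := by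
    intro f c hc h
    rw [← hpn] at h
    exact ne_char hc hp hn h
  rw [Cfsg.Agent.S1067.result hq hK] at hd
  have hc := cover hq.two_le hr hd
  by_cases hp2 : p = 2
  · subst hp2
    rcases hc with (h | h | h | h | h) | h
    · rw [← hpn] at h
      exact absurd ((Nat.prime_dvd_prime_iff_eq hr hp).1 (hr.dvd_of_dvd_pow h)) h2
    · exact Or.inl ((pairD_p hq hK chainA_ok hThA eigA_1 (by decide) (by decide) fixA vanA_1 hr hp h hpq).adj hr hp h2)
    · exact Or.inl ((pairD_p hq hK chainB_ok hThB eigB_2 (by decide) (by decide) fixB vanB_2 hr hp h hpq).adj hr hp h2)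
    · exact Or.inl ((pairD_p hq hK chainA_ok hThA eigA_3 (by decide) (by decide) fixA vanA_3 hr hp h hpq).adj hr hp h2)
    · exact Or.inl ((pairD_p hq hK chainB_ok hThB eigB_6 (by decide) (by decide) fixB vanB_6 hr hp h hpq).adj hr hp h2)
    · exact Or.inr (od_of_c12 hr h)
  · have h2q : ¬ 2 ∣ q := by
      rw [← hpn]
      intro h
      exact hp2 ((Nat.prime_dvd_prime_iff_eq Nat.prime_two hp).1 (Nat.prime_two.dvd_of_dvd_pow h)).symm
    have hc1 := two_dvd_c1 h2q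
    have hc2 : ((2 : ℕ) : ℤ) ∣ pv H493.PGCyc.c2 (q : ℤ) := by
      rw [pv_c2]
      omega
    rcases hc with (h | h | h | h | h) | h
    · rw [← hpn] at h
      rw [(Nat.prime_dvd_prime_iff_eq hr hp).1 (hr.dvd_of_dvd_pow h)]
      exact Or.inl ((pairD_p hq hK chainA_ok hThA eigA_1 (by decide) (by decide) fixA vanA_1 Nat.prime_two hp
        hc1 hpq).symm.adj hp Nat.prime_two hp2)
    · exact Or.inl ((pairD_gen hq hK chainA_ok hThA eigA_1 (by decide) eigA_1 (by decide) hr Nat.prime_two h hc1).adj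
        hr Nat.prime_two h2)
    · exact Or.inl ((pairD_gen hq hK chainB_ok hThB eigB_2 (by decide) eigB_2 (by decide) hr Nat.prime_two h hc2).adj
        hr Nat.prime_two h2)
    · exact Or.inl ((pairD_gen hq hK chainA_ok hThA eigA_3 (by decide) eigA_1 (by decide) hr Nat.prime_two h hc1).adj
        hr Nat.prime_two h2)
    · exact Or.inl ((pairD_gen hq hK chainB_ok hThB eigB_6 (by decide) eigB_2 (by decide) hr Nat.prime_two h hc2).adj
        hr Nat.prime_two h2)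
    · exact Or.inr (od_of_c12 hr h)

/-- **`³D₄(u)`** -/
theorem row_3D4 {D : Dat} {v : ℕ} (hv : IsPrimePow v) (hK : Fintype.card K = v ^ 3)
    (h : Sit D ↥(twistedD4 K v)) : False := by
  have hv2 := hv.two_le
  have hle : v ^ 2 ≤ v ^ 4 := Nat.pow_le_pow_right (by omega) (by norm_num)
  have hn := td4_row hv hK (isoN h)
  obtain ⟨t, ht, htm, -, htc⟩ := h.exists_prime_m
  have h1 := ((adj_3D4 hv hK ht htc).resolve_left (ne_two htm)).resolve_left (h.not_adj_two_m htm)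
  refine not_dvd_n ht htm ?_
  have : D.n = v ^ 4 - v ^ 2 + 1 := by omega
  rw [this]
  exact dvd_n12 hv2 ht h1

end TD4

end Cfsg.Agent.R2.Spec.X1.E6.ERF4
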