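import Cfsg.Agent.R2.Spec.X1.E6.ERBase
import Cfsg.Agent.S1059

/-!
# Identification of `E₆(q)`, `²E₆(q)`: the row of `G₂(u)` (helper77, statements S3480, S3481)
-/

set_option autoImplicit false
set_option linter.unusedSectionVars false

namespace Cfsg.Agent.R2.Spec.X1.E6.ERG2

open Cfsg Cfsg.Lie
open Cfsg.Agent.R2.Spec.X1.E6 Cfsg.Agent.H129.CycT Cfsg.Agent.R2.Spec.X1.E6.ERBase
open Cfsg.Agent.H134.TD (TorAt torAt_of_exact tor_G2_3 tor_G2_6)
open Cfsg.Agent.H378.ExcAdj Cfsg.Agent.H378.CycTab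

universe u

theorem fin {d v x ε δ : ℤ} (hd : 1 ≤ d) (hv : 2 ≤ v) (hε : ε = 1 ∨ ε = -1) (hδ : δ = 1 ∨ δ = -1) (hx : 0 < x)
    (h2 : ε * x + -(2 * δ * v) * d = 0) (hdn : d * (v ^ 2 + δ * v + 1) = x ^ 2 + ε * x + 1) : False := by
  have h5 : 0 < d * v := by positivity
  have h6 : v ^ 2 ≤ d * v ^ 2 := by nlinarith [sq_nonneg v]
  have h7 : d * v ^ 2 ≤ d * (d * v ^ 2) := by nlinarith [mul_nonneg (by linarith : (0 : ℤ) ≤ d) (sq_nonneg v)]
  have h8 : 2 * (d * v) ≤ d * v ^ 2 := by nlinarith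
  have h9 : d ≤ d * v := by nlinarith
  rcases hε with rfl | rfl <;> rcases hδ with rfl | rfl
  · obtain rfl : x = 2 * (d * v) := by linarith
    nlinarith
  · linarith
  · linarith
  · obtain rfl : x = 2 * (d * v) := by linarith
    nlinarith

/-- the two numbers of `G₂(v)` -/
theorem num {D : Dat} {v : ℕ} (hv : 2 ≤ v) {δ : ℤ} (hδ : δ = 1 ∨ δ = -1) (hn : (D.n : ℤ) = (v : ℤ) ^ 2 + δ * v + 1)
    (hm : (D.m : ℤ) ∣ (v : ℤ) ^ 2 - δ * v + 1) : D.q = 2 ∧ D.ε = 1 ∧ v = 9 := by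
  have hv' : (2 : ℤ) ≤ v := by exact_mod_cast hv
  have hδ2 : δ * δ = 1 := by rcases hδ with h | h <;> rw [h] <;> norm_num
  by_cases hq : D.q < 5
  · have hlt : v < 65 := by
      have : D.n ≤ 4033 := by rcases tab D (by omega) with h | h | h | h | h | h | h | h | h | h <;> omega
      have h1 : (D.n : ℤ) ≤ 4033 := by exact_mod_cast this
      by_contra hc
      have h2 : (65 : ℤ) ≤ v := by exact_mod_cast (not_lt.1 hc)
      rcases hδ with h | h <;> rw [h] at hn <;> nlinarith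
    rcases tab D (by omega) with h | h | h | h | h | h | h | h | h | h
    all_goals
      obtain ⟨h1, h2, h3, h4, h5, h6⟩ := h
      rw [h4] at hn
      rw [h5] at hm
      rcases hδ with h | h <;> rw [h] at hn hm <;> interval_cases v <;>
        first
          | exact ⟨h1, h2, rfl⟩
          | (exfalso; revert hn; norm_num; done)
          | (exfalso; revert hm; norm_num; done)
  · exfalso
    push Not at hq
    have hq' : (5 : ℤ) ≤ D.q := by exact_mod_cast hq
    have hd1 : (1 : ℤ) ≤ D.d := by exact_mod_cast D.d_pos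
    have hd3 : (D.d : ℤ) ≤ 3 := by exact_mod_cast (show D.d ≤ 3 by rcases D.hd with h | h <;> omega)
    have h1 : (D.m : ℤ) ∣ 1 * D.n + (-(2 * δ * v)) := by
      have : 1 * (D.n : ℤ) + (-(2 * δ * v)) = (v : ℤ) ^ 2 - δ * v + 1 := by rw [hn]; ring
      rw [this]
      exact hm
    obtain ⟨x, hx⟩ : ∃ x : ℤ, x = (D.q : ℤ) ^ 3 := ⟨_, rfl⟩
    have hx125 : 25 * (D.q : ℤ) ≤ x := by rw [hx]; nlinarith [mul_self_nonneg ((D.q : ℤ) - 5)]
    have hdn : (D.d : ℤ) * ((v : ℤ) ^ 2 + δ * v + 1) = x ^ 2 + D.ε * x + 1 := by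
      rw [← hn, D.hn, hx]; ring
    -- `d v ≤ (7/4) x`
    have hdv : 4 * ((D.d : ℤ) * v) ≤ 7 * x + 4 := by
      by_contra hc
      push Not at hc
      have h2 : D.ε * x ≤ x := by rcases D.eps with h | h <;> rw [h] <;> linarith
      have h3 : -(D.d : ℤ) * v ≤ D.d * (δ * v) := by rcases hδ with h | h <;> rw [h] <;> nlinarith
      have h4 : (7 * x + 4) * (7 * x + 4) < (4 * ((D.d : ℤ) * v)) * (4 * (D.d * v)) := by nlinarith
      have h5 : (D.d : ℤ) * v ^ 2 - D.d * v + D.d ≤ x ^ 2 + x + 1 := by nlinarith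
      have h6 : (D.d : ℤ) * (D.d * v ^ 2) ≤ 3 * (D.d * v ^ 2) := by nlinarith [mul_nonneg (by linarith : (0 : ℤ) ≤ D.d) (sq_nonneg (v : ℤ))]
      nlinarith
    have hmx : (D.m : ℤ) = D.q * x - D.q ^ 2 + 1 := by rw [D.hm, hx]; ring
    have h2 := D.kill h1 (by
      rw [abs_neg, abs_one, one_mul, ← hx]
      have h3 : |2 * δ * (v : ℤ)| = 2 * v := by
        rcases hδ with h | h <;> rw [h]
        · rw [abs_of_nonneg (by linarith)]; ring
        · rw [abs_of_nonpos (by linarith)]; ring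
      rw [h3, hmx]
      nlinarith)
    rw [one_mul, ← hx] at h2
    exact fin hd1 hv' D.eps hδ (by linarith) h2 hdn

/-- **`G₂(u)`** -/
theorem row_G2 {D : Dat} {F : Type u} [Field F] [Fintype F] (h : Sit D ↥(chevG2.group F)) : False := by
  obtain ⟨v, hv⟩ : ∃ v, Fintype.card F = v := ⟨_, rfl⟩
  have hv' : Nat.card F = v := by rw [Nat.card_eq_fintype_card, hv]
  have hv2 : 2 ≤ v := by rw [← hv]; exact Fintype.one_lt_card
  have hle : v ≤ v ^ 2 := Nat.le_self_pow (by norm_num) _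
  have hN3 : ((v ^ 2 + v + 1 : ℕ) : ℤ) = 1 + (v : ℤ) + (v : ℤ) ^ 2 := by push_cast; ring
  have hN6 : ((v ^ 2 - v + 1 : ℕ) : ℤ) = 1 - (v : ℤ) + (v : ℤ) ^ 2 := by push_cast [Nat.cast_sub hle]; ring
  obtain ⟨t, ht, htm, -, htc⟩ := h.exists_prime_m
  have hn := H72.F4I.g2_row hv (isoN h)
  have key : D.q = 2 ∧ D.ε = 1 ∧ v = 9 := by
    rcases ((adj_G2 F ht htc).resolve_left (ne_two htm)).resolve_left (h.not_adj_two_m htm) with h1 | h1
    · rw [hv'] at h1
      have h2 := dvd3 ht h1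
      rw [pv3] at h2
      have h3 : t ∣ v ^ 2 + v + 1 := by exact_mod_cast h2
      obtain ⟨h4, -⟩ := torAt h (tor_G2_3 hv hN3 ht h3 (ne_three htm)) ht h3 htm
      have h5 : (D.m : ℤ) ∣ ((v ^ 2 + v + 1 : ℕ) : ℤ) := Int.natCast_dvd_natCast.2 h4
      rcases hn with hn | hn
      · exact absurd (hn ▸ h3) (not_dvd_n ht htm)
      · refine num hv2 (δ := -1) (Or.inr rfl) ?_ ?_
        · zify at hn
          linear_combination hn
        · push_cast at h5
          convert h5 using 1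
          ring
    · rw [hv'] at h1
      have h2 := dvd6 ht h1
      rw [pv6] at h2
      have h3 : t ∣ v ^ 2 - v + 1 := by
        have : (t : ℤ) ∣ ((v ^ 2 - v + 1 : ℕ) : ℤ) := by
          rw [hN6]
          have e : 1 - (v : ℤ) + (v : ℤ) ^ 2 = (v : ℤ) ^ 2 - v + 1 := by ring
          rw [e]
          exact h2
        exact Int.natCast_dvd_natCast.1 this
      obtain ⟨h4, -⟩ := torAt h (tor_G2_6 hv hN6 ht h3 (ne_three htm)) ht h3 htm
      have h5 : (D.m : ℤ) ∣ ((v ^ 2 - v + 1 : ℕ) : ℤ) := Int.natCast_dvd_natCast.2 h4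
      rw [hN6] at h5
      rcases hn with hn | hn
      · refine num hv2 (δ := 1) (Or.inl rfl) ?_ ?_
        · zify at hn
          linear_combination hn
        · convert h5 using 1
          ring
      · refine absurd ?_ (not_dvd_n ht htm)
        have : D.n = v ^ 2 - v + 1 := by omega
        rw [this]
        exact h3
  obtain ⟨h1, -, rfl⟩ := key
  obtain ⟨x, hx⟩ := h.o8 (by rw [h1])
  rw [h1] at hx
  have h2 := orderOf_dvd_natCard x
  rw [hx, S1059.result hv] at h2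
  revert h2
  norm_num

end Cfsg.Agent.R2.Spec.X1.E6.ERG2
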